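import Cfsg.Agent.FS.Real.Grp

/-!
# Computable finite fields: towers of quadratic extensions (helper44, project FS/N)
-/

set_option autoImplicit false

namespace Cfsg.Agent.FS.N.M

open Cfsg.Agent.FS.Real

section pw

variable {F : Type} [CommRing F] (K : RM F)

/-- binary powers -/
noncomputable def pwB (a f : ℕ) : ℕ → ℕ :=
  Nat.rec (fun _ => 1) (fun _ r m => bif Nat.beq m 0 then 1 else force (m / 2) fun h => force (r h) fun t =>
    force (K.nrm (K.fma 0 t t)) fun s => bif Nat.beq (m % 2) 0 then s else K.nrm (K.fma 0 s a)) f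

theorem val_pwB (a : ℕ) : ∀ f m, m < 2 ^ f → K.val (pwB K a f m) = K.val a ^ m
  | 0, m, h => by
    rw [show m = 0 by omega, pow_zero]
    exact K.val_one
  | f + 1, m, h => by
    have h1 : pwB K a (f + 1) m = bif Nat.beq m 0 then 1 else force (m / 2) fun h => force (pwB K a f h) fun t =>
      force (K.nrm (K.fma 0 t t)) fun s => bif Nat.beq (m % 2) 0 then s else K.nrm (K.fma 0 s a) := rfl
    have h2 := val_pwB a f (m / 2) (by rw [pow_succ] at h; omega)
    have h3 : K.val (K.nrm (K.fma 0 (pwB K a f (m / 2)) (pwB K a f (m / 2)))) = K.val a ^ (2 * (m / 2)) := by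
      rw [K.val_nrm, K.val_fma, K.val_zero, zero_add, h2, two_mul, pow_add]
    rw [h1, force_eq, force_eq, force_eq]
    cases h4 : Nat.beq m 0
    · rw [cond_false]
      rcases Nat.mod_two_eq_zero_or_one m with h5 | h5 <;> rw [h5]
      · rw [Nat.beq_refl, cond_true, h3, show 2 * (m / 2) = m by omega]
      · rw [show Nat.beq 1 0 = false from rfl, cond_false, K.val_nrm, K.val_fma, K.val_zero, zero_add, h3, ← pow_succ,
          show 2 * (m / 2) + 1 = m by omega]
    · rw [cond_true, beq_eq h4, pow_zero, K.val_one]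

/-- powers -/
noncomputable def pwr (a m : ℕ) : ℕ := force a fun a => pwB K a (m + 1) m

theorem val_pwr (a m : ℕ) : K.val (pwr K a m) = K.val a ^ m := by
  unfold pwr
  rw [force_eq]
  exact val_pwB K a _ m (Nat.lt_two_pow_self.trans (Nat.pow_lt_pow_right (by norm_num) (Nat.lt_succ_self m)))

/-- The quadratic extension by a square root of `d`. -/
noncomputable def rmQ (d : ℕ) : RM (QuadraticAlgebra F (K.val d) 0) where
  val c := ⟨K.val (c % 2 ^ K.w), K.val (c >>> K.w)⟩
  w := K.w + K.w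
  fma r a b := force r fun r => force a fun a => force b fun b =>
    force (a % 2 ^ K.w) fun a0 => force (a >>> K.w) fun a1 => force (b % 2 ^ K.w) fun b0 => force (b >>> K.w) fun b1 =>
      K.nrm (K.fma (K.fma (r % 2 ^ K.w) a0 b0) d (K.fma 0 a1 b1)) +
        2 ^ K.w * K.nrm (K.fma (K.fma (r >>> K.w) a0 b1) a1 b0)
  nrm a := force a fun a => K.nrm (a % 2 ^ K.w) + 2 ^ K.w * K.nrm (a >>> K.w)
  m1 := K.nrm K.m1
  val_zero := by
    rw [Nat.zero_mod, Nat.zero_shiftRight, K.val_zero]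
    rfl
  val_one := by
    rw [Nat.mod_eq_of_lt K.one_lt, Nat.shiftRight_eq_div_pow, Nat.div_eq_of_lt K.one_lt, K.val_zero, K.val_one]
    rfl
  val_m1 := by
    rw [Nat.mod_eq_of_lt (K.nrm_lt _), Nat.shiftRight_eq_div_pow, Nat.div_eq_of_lt (K.nrm_lt _), K.val_zero, K.val_nrm,
      K.val_m1]
    ext
    · rfl
    · exact neg_zero.symm
  val_fma r a b := by
    simp only [force_eq]
    rw [Mdl.pair_mod (K.nrm_lt _), Mdl.pair_div (K.nrm_lt _)]
    simp only [K.val_nrm, K.val_fma, K.val_zero]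
    ext
    · simp only [QuadraticAlgebra.re_add, QuadraticAlgebra.re_mul]
      ring
    · simp only [QuadraticAlgebra.im_add, QuadraticAlgebra.im_mul]
      ring
  val_nrm a := by
    rw [force_eq, Mdl.pair_mod (K.nrm_lt _), Mdl.pair_div (K.nrm_lt _), K.val_nrm, K.val_nrm]
  nrm_lt a := by
    rw [force_eq, pow_add]
    have h1 := K.nrm_lt (a % 2 ^ K.w)
    have h2 : 2 ^ K.w * (K.nrm (a >>> K.w) + 1) ≤ 2 ^ K.w * 2 ^ K.w := Nat.mul_le_mul_left _ (K.nrm_lt _)
    rw [Nat.mul_succ] at h2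
    omega
  one_lt := K.one_lt.trans_le (Nat.pow_le_pow_right (by norm_num) (Nat.le_add_right _ _))
  nrm_eq h := by
    rw [force_eq, force_eq, K.nrm_eq (congrArg QuadraticAlgebra.re h), K.nrm_eq (congrArg QuadraticAlgebra.im h)]

end pw

/-- A finite field with `p ^ k` elements and a computable model. -/
structure FF where
  /-- the field -/
  F : Type
  [fld : Field F]
  [fin : Fintype F]
  /-- the model -/
  K : RM F
  /-- characteristic -/
  p : ℕ
  /-- degree -/
  k : ℕ
  hp : p.Prime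
  card : Fintype.card F = p ^ k

attribute [instance] FF.fld FF.fin

/-- the prime field -/
noncomputable def ffZ (p w : ℕ) (hp : p.Prime) (hw : p ≤ 2 ^ w) : FF :=
  haveI : Fact p.Prime := ⟨hp⟩
  { F := ZMod p, K := rmZ p w hp.one_lt hw, p := p, k := 1, hp := hp, card := by rw [ZMod.card, pow_one] }

/-- check: `d` is not a square -/
noncomputable def FF.nsq (A : FF) (d : ℕ) : Bool :=
  Nat.beq (A.p ^ A.k % 2) 1 && !Nat.beq (A.K.nrm d) (A.K.nrm 0) &&
    !Nat.beq (A.K.nrm (pwB A.K d 256 (A.p ^ A.k / 2))) (A.K.nrm 1) && Nat.blt (A.p ^ A.k) (2 ^ 256)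

theorem FF.nsq_spec (A : FF) {d : ℕ} (h : A.nsq d = true) (r : A.F) : r ^ 2 ≠ A.K.val d + 0 * r := by
  unfold FF.nsq at h
  simp only [Bool.and_eq_true] at h
  obtain ⟨⟨⟨h1, h2⟩, h3⟩, h4⟩ := h
  intro h5
  rw [zero_mul, add_zero] at h5
  have h6 : r ≠ 0 := by
    rintro rfl
    exact nbeq_ne h2 (A.K.nrm_eq (by rw [← h5, A.K.val_zero, zero_pow two_ne_zero]))
  refine nbeq_ne h3 (A.K.nrm_eq ?_)
  have h7 := beq_eq h1
  rw [val_pwB _ _ _ _ ((Nat.div_le_self _ _).trans_lt (blt_lt h4)), ← h5, ← pow_mul, A.K.val_one,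
    show 2 * (A.p ^ A.k / 2) = A.p ^ A.k - 1 by omega, ← A.card]
  exact FiniteField.pow_card_sub_one_eq_one r h6

/-- the quadratic extension -/
noncomputable def FF.quad (A : FF) (d : ℕ) (h : A.nsq d = true) : FF :=
  haveI : Fact (∀ r : A.F, r ^ 2 ≠ A.K.val d + 0 * r) := ⟨A.nsq_spec h⟩
  { F := QuadraticAlgebra A.F (A.K.val d) 0
    fin := Fintype.ofEquiv _ (QuadraticAlgebra.equivProd _ _).symm
    K := rmQ A.K d
    p := A.p
    k := A.k + A.k
    hp := A.hp
    card := by rw [Fintype.ofEquiv_card, Fintype.card_prod, A.card, pow_add] }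

/-- the field with four elements -/
noncomputable def ff4 : FF where
  F := GaloisField 2 2
  fin := Fintype.ofFinite _
  K := rmF4
  p := 2
  k := 2
  hp := Nat.prime_two
  card := by rw [← @Nat.card_eq_fintype_card _ (Fintype.ofFinite _), card_F4]; rfl

theorem FF.charP (A : FF) : CharP A.F A.p := by
  obtain ⟨r, hr⟩ := CharP.exists A.F
  obtain ⟨m, h1, h2⟩ := FiniteField.card A.F r
  have h3 : r ∣ A.p ^ A.k := by
    rw [← A.card, h2]
    exact dvd_pow_self r m.ne_zero
  rwa [← (Nat.prime_dvd_prime_iff_eq h1 A.hp).1 (h1.dvd_of_dvd_pow h3)]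

/-- the Frobenius automorphism -/
noncomputable def FF.fr (A : FF) : A.F ≃+* A.F :=
  haveI := A.charP
  haveI : Fact A.p.Prime := ⟨A.hp⟩
  frobeniusEquiv A.F A.p

theorem FF.fr_apply (A : FF) (a : A.F) : A.fr a = a ^ A.p := rfl

theorem FF.fr_iter (A : FF) (a : A.F) : ∀ j, A.fr^[j] a = a ^ A.p ^ j
  | 0 => by rw [pow_zero, pow_one]; rfl
  | j + 1 => by rw [Function.iterate_succ_apply', A.fr_iter a j, A.fr_apply, ← pow_mul, ← pow_succ]

theorem FF.k_pos (A : FF) : 0 < A.k := by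
  by_contra h
  have h1 := A.card
  rw [show A.k = 0 by omega, pow_zero] at h1
  exact Fintype.one_lt_card.ne' h1

end Cfsg.Agent.FS.N.M
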